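import Cfsg.Agent.Helper27.HSSimple
import Cfsg.Agent.S0430
import Cfsg.Agent.S0428

set_option autoImplicit false
open Cfsg

/-! The graph on the 100 points of the Higman–Sims configuration (two points adjacent when their
dot product is 8) is strongly regular with parameters (100, 22, 0, 6); the stabiliser of the
configuration acts faithfully on it. -/

namespace Cfsg.Agent.Helper27

/-- the vectors `(1, …, 1, -3, 1, …, 1)` -/
def yvec (i : GolayPt) : GolayPt → ℤ := fun k => if k = i then -3 else 1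

lemma yvec_chk : ∀ i : GolayPt, Chk (yvec i) := by decide +kernel

/-- the vectors `(1, …, 1, -3, 1, …, 1)` as members of the lattice -/
def yvL (i : GolayPt) : leechLattice := ⟨yvec i, mem_of_chk _ (yvec_chk i)⟩

lemma yvL_mem : ∀ i : GolayPt, i ≠ none → i ≠ some 0 →
    (sqNorm (yvec i) = 32 ∧ dotInt sv0f (yvec i) = 24 ∧ dotInt sw0f (yvec i) = -24) ∧
      dotInt sx0f (yvec i) = 8 := by decide +kernel

lemma yvL_inj : Function.Injective yvL := by
  intro i j h
  have h1 := congrFun (congrArg Subtype.val h) i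
  change yvec i i = yvec j i at h1
  unfold yvec at h1
  rw [if_pos rfl] at h1
  by_contra hne
  rw [if_neg hne] at h1
  omega

lemma yvec_dot : ∀ a j : GolayPt, dotInt (yvec a) (yvec j) ≠ 8 := by decide +kernel

/-- neighbours in the 100-set -/
def nbSet (x : leechLattice) : Set leechLattice :=
  {z | z ∈ hsSet sv0 sw0 ∧ dotInt x.1 z.1 = 8}

/-- common neighbours in the 100-set -/
def cnSet (x y : leechLattice) : Set leechLattice :=
  {z | z ∈ hsSet sv0 sw0 ∧ dotInt x.1 z.1 = 8 ∧ dotInt y.1 z.1 = 8}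

lemma hsV_finite : (hsSet sv0 sw0).Finite :=
  Set.finite_of_ncard_ne_zero (by rw [hs_count sv0 sw0 sv0_norm sw0_norm s0_dot]; norm_num)

lemma pts22 : ({i : GolayPt | i ≠ none ∧ i ≠ some 0} : Set GolayPt).ncard = 22 := by
  have e : ({i : GolayPt | i ≠ none ∧ i ≠ some 0} : Set GolayPt) =
      ↑(Finset.univ.filter (fun i : GolayPt => i ≠ none ∧ i ≠ some 0)) := by
    ext i
    simp
  rw [e, Set.ncard_coe_finset]
  decide

lemma nb_sx0 : nbSet sx0 = yvL '' {i : GolayPt | i ≠ none ∧ i ≠ some 0} := by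
  symm
  apply Set.eq_of_subset_of_ncard_le
  · rintro z ⟨i, ⟨h1, h2⟩, rfl⟩
    exact ⟨(yvL_mem i h1 h2).1, (yvL_mem i h1 h2).2⟩
  · have h22 : (nbSet sx0).ncard = 22 :=
      (hs_rank3 sv0 sw0 sx0 sv0_norm sw0_norm s0_dot sx0_mem).1
    rw [h22, Set.ncard_image_of_injective _ yvL_inj, pts22]
  · exact hsV_finite.subset (fun z hz => hz.1)

lemma cn_adj_ref (a : GolayPt) : cnSet sx0 (yvL a) = ∅ := by
  ext z
  simp only [Set.mem_empty_iff_false, iff_false]
  rintro ⟨hz, h1, h2⟩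
  have hz' : z ∈ nbSet sx0 := ⟨hz, h1⟩
  rw [nb_sx0] at hz'
  obtain ⟨j, _, rfl⟩ := hz'
  exact yvec_dot a j h2

/-- a point of the 100-set not adjacent to the standard point -/
def zBf : GolayPt → ℤ := fun k =>
  if k ∈ ({none, some 0, some 12, some 14, some 16, some 17, some 18, some 22} : Finset GolayPt)
    then 2 else 0

lemma zBf_chk : Chk zBf := by decide +kernel

/-- a point of the 100-set not adjacent to the standard point -/
def zB : leechLattice := ⟨zBf, mem_of_chk _ zBf_chk⟩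

lemma zB_mem : zB ∈ hsSet sv0 sw0 := by
  refine ⟨?_, ?_, ?_⟩ <;> decide +kernel

lemma zB_dot : dotInt sx0.1 zB.1 = 16 := by decide +kernel

lemma pts6 : ({i : GolayPt | i ≠ none ∧ i ≠ some 0 ∧ dotInt zBf (yvec i) = 8} :
    Set GolayPt).ncard = 6 := by
  have e : ({i : GolayPt | i ≠ none ∧ i ≠ some 0 ∧ dotInt zBf (yvec i) = 8} : Set GolayPt) =
      ↑(Finset.univ.filter (fun i : GolayPt => i ≠ none ∧ i ≠ some 0 ∧
        dotInt zBf (yvec i) = 8)) := by
    ext i
    simp
  rw [e, Set.ncard_coe_finset]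
  decide +kernel

lemma cn_nonadj_ref : (cnSet sx0 zB).ncard = 6 := by
  have e : cnSet sx0 zB =
      yvL '' {i : GolayPt | i ≠ none ∧ i ≠ some 0 ∧ dotInt zBf (yvec i) = 8} := by
    ext z
    constructor
    · rintro ⟨hz, h1, h2⟩
      have hz' : z ∈ nbSet sx0 := ⟨hz, h1⟩
      rw [nb_sx0] at hz'
      obtain ⟨j, ⟨hj1, hj2⟩, rfl⟩ := hz'
      exact ⟨j, ⟨hj1, hj2, h2⟩, rfl⟩
    · rintro ⟨j, ⟨hj1, hj2, h2⟩, rfl⟩
      exact ⟨(yvL_mem j hj1 hj2).1, (yvL_mem j hj1 hj2).2, h2⟩
  rw [e, Set.ncard_image_of_injective _ yvL_inj, pts6]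

lemma cn_smul (g : Co0) (h1 : g • sv0 = sv0) (h2 : g • sw0 = sw0) (x y : leechLattice) :
    (cnSet x y).ncard = (cnSet (g • x) (g • y)).ncard := by
  apply ncard_smul g
  intro z
  show (z ∈ hsSet sv0 sw0 ∧ dotInt x.1 z.1 = 8 ∧ dotInt y.1 z.1 = 8) ↔
    (g • z ∈ hsSet sv0 sw0 ∧ dotInt (g • x : leechLattice).1 (g • z : leechLattice).1 = 8 ∧
      dotInt (g • y : leechLattice).1 (g • z : leechLattice).1 = 8)
  rw [co0_dot, co0_dot]
  have := hsSet_smul g sv0 sw0 z
  rw [h1, h2] at this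
  rw [← this]

lemma sx0_self : dotInt sx0.1 sx0.1 = 32 := by
  rw [dotInt_self]
  exact sx0_mem.1

/-- reduction of a pair of points to the standard point and a reference point -/
lemma cn_reduce (x y r : leechLattice) (hx : x ∈ hsSet sv0 sw0) (hy : y ∈ hsSet sv0 sw0)
    (hr : r ∈ hsSet sv0 sw0) (hne : x ≠ y) (hr0 : r ≠ sx0)
    (hiff : dotInt x.1 y.1 = 8 ↔ dotInt sx0.1 r.1 = 8) :
    (cnSet x y).ncard = (cnSet sx0 r).ncard := by
  obtain ⟨g, g1, g2, g3⟩ := hs_trans sv0 sw0 sv0_norm sw0_norm s0_dot x hx sx0 sx0_mem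
  have hy' : g • y ∈ hsSet sv0 sw0 := by
    have := (hsSet_smul g sv0 sw0 y).mp hy
    rwa [g1, g2] at this
  have hne' : g • y ≠ sx0 := by
    intro h
    rw [← g3] at h
    exact hne (smul_left_cancel g h).symm
  have hd : dotInt sx0.1 (g • y : leechLattice).1 = dotInt x.1 y.1 := by
    rw [← g3, co0_dot]
  obtain ⟨h, h1, h2, h3, h4⟩ := (hs_rank3 sv0 sw0 sx0 sv0_norm sw0_norm s0_dot sx0_mem).2.2
    (g • y) hy' r hr hne' hr0 (by rw [hd]; exact hiff)
  rw [cn_smul g g1 g2 x y, g3, cn_smul h h1 h2 sx0 (g • y), h3, h4]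

lemma cn_adj (x y : leechLattice) (hx : x ∈ hsSet sv0 sw0) (hy : y ∈ hsSet sv0 sw0)
    (hxy : dotInt x.1 y.1 = 8) : (cnSet x y).ncard = 0 := by
  have hne : x ≠ y := by
    rintro rfl
    have := hx.1
    rw [dotInt_self] at hxy
    omega
  have hm := yvL_mem (some 1) (by decide) (by decide)
  have hr : yvL (some 1) ∈ hsSet sv0 sw0 := hm.1
  have hr8 : dotInt sx0.1 (yvL (some 1)).1 = 8 := hm.2
  have hr0 : yvL (some 1) ≠ sx0 := by
    intro h
    rw [h, sx0_self] at hr8
    omega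
  rw [cn_reduce x y (yvL (some 1)) hx hy hr hne hr0 ⟨fun _ => hr8, fun _ => hxy⟩, cn_adj_ref,
    Set.ncard_empty]

lemma cn_nonadj (x y : leechLattice) (hx : x ∈ hsSet sv0 sw0) (hy : y ∈ hsSet sv0 sw0)
    (hne : x ≠ y) (hxy : dotInt x.1 y.1 ≠ 8) : (cnSet x y).ncard = 6 := by
  have hr0 : zB ≠ sx0 := by
    intro h
    have := zB_dot
    rw [h, sx0_self] at this
    omega
  have hz8 : dotInt sx0.1 zB.1 ≠ 8 := by rw [zB_dot]; norm_num
  rw [cn_reduce x y zB hx hy zB_mem hne hr0 ⟨fun h => absurd h hxy, fun h => absurd h hz8⟩,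
    cn_nonadj_ref]

/-! ### the graph -/

/-- the 100 points -/
abbrev HSV : Type := ↥(hsSet sv0 sw0)

noncomputable instance hsvFintype : Fintype HSV := hsV_finite.fintype

/-- the graph on the 100 points -/
def hsGraph : SimpleGraph HSV where
  Adj x y := dotInt x.1.1 y.1.1 = 8
  symm := ⟨fun x y h => by rw [dotInt_comm]; exact h⟩
  loopless := ⟨fun x h => by
    have := x.2.1
    rw [dotInt_self] at h
    omega⟩

instance hsGraphDec : DecidableRel hsGraph.Adj :=
  fun x y => inferInstanceAs (Decidable (dotInt x.1.1 y.1.1 = 8))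

lemma card_sub (A : Set HSV) [Fintype ↥A] : Fintype.card ↥A = (Subtype.val '' A).ncard := by
  rw [Fintype.card_eq_nat_card, Nat.card_coe_set_eq,
    Set.ncard_image_of_injective _ Subtype.val_injective]

lemma nb_image (v : HSV) : Subtype.val '' (hsGraph.neighborSet v) = nbSet v.1 := by
  ext z
  constructor
  · rintro ⟨w, hw, rfl⟩
    exact ⟨w.2, hw⟩
  · rintro ⟨hz, h⟩
    exact ⟨⟨z, hz⟩, h, rfl⟩

lemma cn_image (v w : HSV) : Subtype.val '' (hsGraph.commonNeighbors v w) = cnSet v.1 w.1 := by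
  ext z
  constructor
  · rintro ⟨u, ⟨hu1, hu2⟩, rfl⟩
    exact ⟨u.2, hu1, hu2⟩
  · rintro ⟨hz, h1, h2⟩
    exact ⟨⟨z, hz⟩, ⟨h1, h2⟩, rfl⟩

theorem hsGraph_srg : hsGraph.IsSRGWith 100 22 0 6 where
  card := by
    rw [Fintype.card_eq_nat_card, Nat.card_coe_set_eq]
    exact hs_count sv0 sw0 sv0_norm sw0_norm s0_dot
  regular := by
    intro v
    rw [← SimpleGraph.card_neighborSet_eq_degree, card_sub, nb_image]
    exact (hs_rank3 sv0 sw0 v.1 sv0_norm sw0_norm s0_dot v.2).1
  of_adj := by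
    intro v w hvw
    rw [card_sub, cn_image]
    exact cn_adj v.1 w.1 v.2 w.2 hvw
  of_not_adj := by
    intro v w hne hvw
    rw [card_sub, cn_image]
    exact cn_nonadj v.1 w.1 v.2 w.2 (fun h => hne (Subtype.ext h)) hvw

/-! ### the action -/

/-- the stabiliser of the standard pair -/
abbrev HS0 : Subgroup Co0 := MulAction.stabilizer Co0 sv0 ⊓ MulAction.stabilizer Co0 sw0

/-- the action of an element of the stabiliser on the graph -/
def hsAct (g : ↥HS0) : hsGraph ≃g hsGraph where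
  toFun x := ⟨g • x.1, hsSet_inv sv0 sw0 g x.1 x.2⟩
  invFun x := ⟨g⁻¹ • x.1, hsSet_inv sv0 sw0 g⁻¹ x.1 x.2⟩
  left_inv x := Subtype.ext (inv_smul_smul g x.1)
  right_inv x := Subtype.ext (smul_inv_smul g x.1)
  map_rel_iff' := by
    intro a b
    show dotInt (g.1 • a.1 : leechLattice).1 (g.1 • b.1 : leechLattice).1 = 8 ↔
      dotInt a.1.1 b.1.1 = 8
    rw [co0_dot]

/-- the action as a homomorphism -/
def hsActHom : ↥HS0 →* (hsGraph ≃g hsGraph) where
  toFun := hsAct
  map_one' := by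
    refine RelIso.ext fun x => Subtype.ext ?_
    show (1 : ↥HS0) • x.1 = x.1
    exact one_smul _ _
  map_mul' a b := by
    refine RelIso.ext fun x => Subtype.ext ?_
    show (a * b) • x.1 = a • (b • x.1)
    exact mul_smul a b x.1

lemma hsActHom_inj : Function.Injective hsActHom := by
  haveI := hs_simple sv0 sw0 sv0_norm sw0_norm s0_dot
  rw [← MonoidHom.ker_eq_bot_iff]
  rcases (hs_simple sv0 sw0 sv0_norm sw0_norm s0_dot).eq_bot_or_eq_top_of_normal hsActHom.ker
    inferInstance with h | h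
  · exact h
  · exfalso
    have hm := yvL_mem (some 1) (by decide) (by decide)
    obtain ⟨g, g1, g2, g3⟩ := hs_trans sv0 sw0 sv0_norm sw0_norm s0_dot sx0 sx0_mem
      (yvL (some 1)) hm.1
    have hg : (⟨g, Subgroup.mem_inf.2 ⟨g1, g2⟩⟩ : ↥HS0) ∈ hsActHom.ker := by
      rw [h]
      exact Subgroup.mem_top _
    rw [MonoidHom.mem_ker] at hg
    have h2 := congrArg (fun f : hsGraph ≃g hsGraph => (f ⟨sx0, sx0_mem⟩).1) hg
    have h3 : g • sx0 = sx0 := h2
    rw [g3] at h3
    have h8 : dotInt sx0.1 (yvL (some 1)).1 = 8 := hm.2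
    rw [h3, sx0_self] at h8
    omega

/-- transport of the action to an isomorphic graph -/
theorem exists_hs_aut {W : Type*} (Γ : SimpleGraph W) (φ : hsGraph ≃g Γ) :
    ∃ H : Subgroup (Γ ≃g Γ), IsSimpleGroup ↥H ∧ Nat.card ↥H = 44352000 := by
  let ψ : ↥HS0 →* (Γ ≃g Γ) :=
    { toFun := fun g => (φ.symm.trans (hsAct g)).trans φ
      map_one' := by
        refine RelIso.ext fun x => ?_
        show φ (hsAct 1 (φ.symm x)) = x
        have : hsAct 1 = 1 := hsActHom.map_one
        rw [this]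
        exact φ.apply_symm_apply x
      map_mul' := by
        intro a b
        refine RelIso.ext fun x => ?_
        show φ (hsAct (a * b) (φ.symm x)) = φ (hsAct a (φ.symm (φ (hsAct b (φ.symm x)))))
        have : hsAct (a * b) = hsAct a * hsAct b := hsActHom.map_mul a b
        rw [this, φ.symm_apply_apply]
        rfl }
  have hψ : Function.Injective ψ := by
    intro a b hab
    apply hsActHom_inj
    refine RelIso.ext fun x => Subtype.ext ?_
    have h1 := congrArg (fun f : Γ ≃g Γ => f (φ x)) hab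
    have h2 : φ (hsAct a (φ.symm (φ x))) = φ (hsAct b (φ.symm (φ x))) := h1
    rw [φ.symm_apply_apply] at h2
    exact congrArg Subtype.val (φ.injective h2)
  have e := MonoidHom.ofInjective hψ
  haveI := hs_simple sv0 sw0 sv0_norm sw0_norm s0_dot
  refine ⟨ψ.range, (MulEquiv.isSimpleGroup_congr e).1 inferInstance, ?_⟩
  rw [← Nat.card_congr e.toEquiv]
  exact hs_card sv0 sw0 sv0_norm sw0_norm s0_dot

end Cfsg.Agent.Helper27
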